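import Groth.Agent.Lefpen.H625.ConeTan

/-!
# Derivations and degrees on the cone
-/

set_option autoImplicit false
set_option linter.unusedSectionVars false
universe u

open MvPolynomial

namespace Groth.Agent.Lefpen.H625.ConeMem

open Groth.Agent.Lefpen.H728.LaurReg Groth.Agent.Lefpen.H625.ConeR Groth.Agent.Lefpen.H725.Frame
open Groth.Agent.Lefpen.H625.ConeDer Groth.Agent.Lefpen.H625.ConeTan
open Groth.Agent.Lefpen.H718.Reg Groth.Agent.Lefpen.H718.ConeCM Groth.Agent.Lefpen.H718.Grade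

section General

variable {K : Type u} [Field K] {ι : Type} [Fintype ι] [DecidableEq ι] {Q : Type u} [Field Q]
  (φ : MvPolynomial ι K →+* Q)

theorem cd_of_zero (δ : K →+ Q) (h : ∀ c, δ c = 0) (P : MvPolynomial ι K) : cd φ δ P = 0 := by
  induction P using MvPolynomial.induction_on' with
  | monomial m c => rw [cd_monomial, h, zero_mul]
  | add P P' h h' => rw [map_add, h, h', add_zero]

theorem cd_mem (δ : K →+ Q) (I : Finset ι) (m z : ℤ) (h : ∀ c, δ c ∈ RS φ I m) (P : MvPolynomial ι K)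
    (hP : HomZ P z) : cd φ δ P ∈ RS φ I (m + z) := by
  rw [← support_sum_monomial_coeff P, map_sum]
  refine AddSubgroup.sum_mem _ fun s hs => ?_
  rw [cd_monomial]
  refine RS_mul (h _) (map_mem (homZ_of (isHomogeneous_monomial (n := s.degree) _ rfl) ?_))
  exact (hP s (mem_support_iff.1 hs)).symm

/-- A derivation regular on coordinates is regular on polynomials. -/
theorem der_poly_mem (D : Derivation ℤ Q Q) (I : Finset ι) (m : ℤ) (hC : ∀ c, D (φ (C c)) ∈ RS φ I m)
    (hX : ∀ i, D (φ (X i)) ∈ RS φ I (m + 1)) {z : ℤ} {P : MvPolynomial ι K} (hP : HomZ P z) :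
    D (φ P) ∈ RS φ I (m + z) := by
  rw [der_poly]
  refine AddSubgroup.add_mem _ (cd_mem φ _ I m z hC P hP) (AddSubgroup.sum_mem _ fun i _ => ?_)
  exact RS_mul' (map_mem (homZ_pderiv i hP)) (hX i) (by ring)

/-- A derivation regular on coordinates is regular. -/
theorem der_mem (D : Derivation ℤ Q Q) (I : Finset ι) (m : ℤ)
    (hC : ∀ c, D (φ (C c)) ∈ RS φ I m)
    (hX : ∀ i, D (φ (X i)) ∈ RS φ I (m + 1)) (m' : ℤ) (f : Q) (hf : f ∈ RS φ I m') :
    D f ∈ RS φ I (m + m') := by
  have hf' := hf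
  obtain ⟨n, P, hP, h⟩ := hf
  have h1 := der_poly_mem φ D I m hC hX hP
  have h2 := der_poly_mem φ D I m hC hX (homZ_xp_pow (K := K) I n)
  rw [← h, Derivation.leibniz, smul_eq_mul, smul_eq_mul] at h1
  rw [map_pow] at h2
  refine RS_of_pow_mul (n := n) (z := m + (m' + n * I.card)) (by ring) ?_
  have h3 := AddSubgroup.sub_mem _ h1 (RS_mul' hf' h2 (by ring : m + (m' + n * (I.card : ℤ)) = m' + (m + n * I.card)))
  rwa [add_sub_cancel_right] at h3

/-- The Euler derivation. -/
theorem euler (D : Derivation ℤ Q Q) (hC : ∀ c, D (φ (C c)) = 0) (hX : ∀ i, D (φ (X i)) = φ (X i))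
    {z : ℤ} {P : MvPolynomial ι K} (hP : HomZ P z) : D (φ P) = z * φ P := by
  rw [der_poly, cd_of_zero φ _ hC, zero_add]
  simp only [hX]
  rcases lt_or_ge z 0 with hz | hz
  · rw [hP.eq_zero hz]
    simp
  · obtain ⟨n, rfl⟩ := Int.eq_ofNat_of_zero_le hz
    have h1 := (homZ_iff.1 hP).sum_X_mul_pderiv
    have h2 := congrArg φ h1
    rw [map_sum, nsmul_eq_mul, map_mul, map_natCast] at h2
    rw [Int.cast_natCast, ← h2]
    exact Finset.sum_congr rfl fun i _ => by rw [map_mul, mul_comm]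

end General

variable {K : Type u} [Field K] {N d : ℕ} {g : Fin d → MvPolynomial (Fin (N + 1)) K} {a : Fin d → ℕ}
  [Fintype (Σ j : Fin d, {m : Fin (N + 1) →₀ ℕ // m.degree = a j})]
  [DecidableEq (Σ j : Fin d, {m : Fin (N + 1) →₀ ℕ // m.degree = a j})]
  (F : Frame K (Σ j : Fin d, {m : Fin (N + 1) →₀ ℕ // m.degree = a j}))
  (Q : Type u) [Field Q] [Algebra (A g) Q] [IsFractionRing (A g) Q]

theorem der_C_of (D : Derivation ℤ Q Q) (h : ∀ e, D (ph g Q (C (F.z e))) = 0) (c : K) : D (ph g Q (C c)) = 0 := by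
  rw [der_const (ph g Q) F]
  exact Finset.sum_eq_zero fun e _ => by rw [h, zero_mul]

/-- A derivation killing the coordinates vanishes. -/
theorem ext_der (D : Derivation ℤ Q Q) (h : ∀ x, D (zz (ph g Q) F x) = 0) : D = 0 := by
  have hC : ∀ c, D (ph g Q (C c)) = 0 := der_C_of F Q D fun e => h (Sum.inl e)
  have hP : ∀ P, D (ph g Q P) = 0 := by
    intro P
    rw [der_poly, cd_of_zero (ph g Q) _ hC, zero_add]
    exact Finset.sum_eq_zero fun i _ => by
      have : D (ph g Q (X i)) = 0 := h (Sum.inr i)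
      rw [this, mul_zero]
  refine Derivation.ext fun q => ?_
  obtain ⟨P, P', hne, hq⟩ := exists_frac (g := g) Q q
  have h1 := hP P
  rw [← hq, Derivation.leibniz, hP, smul_zero, zero_add, smul_eq_mul] at h1
  rw [Derivation.zero_apply]
  exact (mul_eq_zero.1 h1).resolve_left hne

theorem exists_x_ne (hg : ∀ i, constantCoeff (g i) = 0) (hJ : JacCond g) {n : ℕ} (hN : N = n + d) :
    ∃ α, ph g Q (X α) ≠ 0 := by
  by_contra hcon
  push Not at hcon
  have h1 : irr g = ⊥ := by
    rw [eq_bot_iff, irr, Ideal.map_span, Ideal.span_le]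
    rintro _ ⟨_, ⟨j, rfl⟩, rfl⟩
    have h2 := hcon j
    rw [RingHom.comp_apply, IsFractionRing.to_map_eq_zero_iff] at h2
    exact h2
  have h2 := height_irr g hg hJ hN
  have hm := isMaximal_irr g hg
  have hnt : Nontrivial (A g) := by
    refine ⟨⟨0, 1, fun h01 => hm.ne_top ?_⟩⟩
    rw [Ideal.eq_top_iff_one, ← h01]
    exact zero_mem _
  rw [h1, Ideal.height_bot] at h2
  have : (0 : ℕ∞) < ((n + 1 : ℕ) : ℕ∞) := by exact_mod_cast Nat.succ_pos n
  rw [← h2] at this
  exact lt_irrefl _ this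

/-- The variables do not vanish on the cone. -/
theorem x_ne (hh : ∀ j, (g j).IsHomogeneous (a j)) (hF : ∀ jm, F.z jm = coeff jm.2.1 (g jm.1))
    (hg : ∀ i, constantCoeff (g i) = 0) (hJ : JacCond g) {n : ℕ} (hN : N = n + d) (i : Fin (N + 1)) :
    ph g Q (X i) ≠ 0 := by
  obtain ⟨α, hα⟩ := exists_x_ne Q hg hJ hN
  let pr : Fin d → (Σ j : Fin d, {m : Fin (N + 1) →₀ ℕ // m.degree = a j}) :=
    fun l => ⟨l, Finsupp.single α (a l), by rw [Finsupp.degree_single]⟩
  let v : (Σ j : Fin d, {m : Fin (N + 1) →₀ ℕ // m.degree = a j}) ⊕ Fin (N + 1) → Q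
    | Sum.inl e => if e = pr e.1 then - ph g Q (pderiv i (g e.1)) / ph g Q (X α) ^ (a e.1) else 0
    | Sum.inr k => if k = i then 1 else 0
  have hv : ∀ l, ∑ x, gg (ph g Q) g l x * v x = 0 := by
    intro l
    rw [Fintype.sum_sum_type]
    have h1 : ∑ e, gg (ph g Q) g l (Sum.inl e) * v (Sum.inl e) = - ph g Q (pderiv i (g l)) := by
      rw [Finset.sum_eq_single (pr l)]
      · have h2 : gg (ph g Q) g l (Sum.inl (pr l)) = ph g Q (monomial (Finsupp.single α (a l)) 1) := if_pos rfl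
        have h3 : v (Sum.inl (pr l)) = - ph g Q (pderiv i (g l)) / ph g Q (X α) ^ (a l) := if_pos rfl
        rw [h2, h3, ← X_pow_eq_monomial, map_pow, mul_div_cancel₀]
        exact pow_ne_zero _ hα
      · intro e _ he
        by_cases hl : l = e.1
        · have h3 : v (Sum.inl e) = 0 := if_neg (by rw [← hl]; exact he)
          rw [h3, mul_zero]
        · have h2 : gg (ph g Q) g l (Sum.inl e) = 0 := if_neg hl
          rw [h2, zero_mul]
      · intro h; exact absurd (Finset.mem_univ _) h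
    have h2 : ∑ k, gg (a := a) (ph g Q) g l (Sum.inr k) * v (Sum.inr k) = ph g Q (pderiv i (g l)) := by
      rw [Finset.sum_eq_single i]
      · have h3 : v (Sum.inr i) = 1 := if_pos rfl
        rw [h3, mul_one]; rfl
      · intro k _ hk
        have h3 : v (Sum.inr k) = 0 := if_neg hk
        rw [h3, mul_zero]
      · intro h; exact absurd (Finset.mem_univ _) h
    rw [h1, h2, neg_add_cancel]
  obtain ⟨D, hD⟩ := lift F hh hF Q v hv
  intro h0
  have h1 : D (ph g Q (X i)) = v (Sum.inr i) := hD (Sum.inr i)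
  have h3 : v (Sum.inr i) = 1 := if_pos rfl
  rw [h0, map_zero, h3] at h1
  exact zero_ne_one h1

end Groth.Agent.Lefpen.H625.ConeMem
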