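import Groth.Agent.Lefpen.H625.ConeMem
import Groth.Agent.Lefpen.H718.Minor
import Groth.Agent.Lefpen.H411.Cartier

/-!
# Roots and commuting derivations on the cone
-/

set_option autoImplicit false
set_option linter.unusedSectionVars false
universe u

open MvPolynomial

namespace Groth.Agent.Lefpen.H625.ConeRoot

open Groth.Agent.Lefpen.H728.LaurReg Groth.Agent.Lefpen.H625.ConeR Groth.Agent.Lefpen.H725.Frame
open Groth.Agent.Lefpen.H625.ConeDer Groth.Agent.Lefpen.H625.ConeTan Groth.Agent.Lefpen.H625.ConeMem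
open Groth.Agent.Lefpen.H718.Reg Groth.Agent.Lefpen.H718.ConeCM Groth.Agent.Lefpen.H718.Grade

variable {K : Type u} [Field K] {N d : ℕ} {g : Fin d → MvPolynomial (Fin (N + 1)) K} {a : Fin d → ℕ}

section Root

variable (p : ℕ) [Fact p.Prime] [CharP K p] (hh : ∀ j, (g j).IsHomogeneous (a j))

include p in
theorem homog_root [IsDomain (A g)] (E : ℕ) (b : A g) (h : Homog g hh (p * E) (b ^ p)) : Homog g hh E b := by
  have hA : CharP (A g) p := charP_of_injective_ringHom ((mk g).comp C).injective p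
  have h1 : (delta g hh b - Polynomial.C b * Polynomial.X ^ E) ^ p = 0 := by
    have h2 := sub_pow_char (R := Polynomial (A g)) (p := p) (delta g hh b) (Polynomial.C b * Polynomial.X ^ E)
    rw [h2, aux_pow, sub_eq_zero]
    rw [Homog, map_pow] at h
    exact h
  exact sub_eq_zero.1 (pow_eq_zero_iff (Fact.out : p.Prime).ne_zero |>.1 h1)

variable (Q : Type u) [Field Q] [Algebra (A g) Q] [IsFractionRing (A g) Q]

include hh in
theorem root [IsDomain (A g)] [IsIntegrallyClosed (A g)] (hx : ∀ i, ph g Q (X i) ≠ 0) (α : Fin (N + 1)) (m : ℤ) (x : Q)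
    (h : x ^ p ∈ RS (ph g Q) {α} (p * m)) : x ∈ RS (ph g Q) {α} m := by
  have hp : p.Prime := Fact.out
  obtain ⟨n, P, hP, hPx⟩ := h
  have hxp : xp K ({α} : Finset (Fin (N + 1))) = X α := by simp [xp]
  rw [hxp] at hPx
  rw [Finset.card_singleton, Nat.cast_one, mul_one] at hP
  obtain ⟨q, hq⟩ : ∃ q, p = q + 1 := ⟨p - 1, by have := hp.one_le; omega⟩
  set φ := ph g Q with hφ
  set y := φ (X α) ^ n * x with hy
  set P1 : MvPolynomial (Fin (N + 1)) K := X α ^ (n * q) * P with hP1
  have hP1h : HomZ P1 (p * (m + n)) := by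
    have := HomZ.mul' (HomZ.pow' (homZ_X (K := K) α) (n * q)) hP
    rwa [show ((n * q : ℕ) : ℤ) * 1 + (p * m + n) = p * (m + n) by rw [hq]; push_cast; ring] at this
  have hyp : y ^ p = φ P1 := by
    rw [hy, hP1, map_mul, map_pow, ← hPx, mul_pow, ← pow_mul, hq]
    ring
  rcases lt_or_ge (m + n) 0 with hneg | hpos
  · have h0 : P1 = 0 := hP1h.eq_zero (mul_neg_of_pos_of_neg (by exact_mod_cast hp.pos) hneg)
    rw [h0, map_zero] at hyp
    have hy0 : y = 0 := pow_eq_zero_iff hp.ne_zero |>.1 hyp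
    have hx0 : x = 0 := (mul_eq_zero.1 (hy.symm.trans hy0)).resolve_left (pow_ne_zero _ (hx α))
    rw [hx0]
    exact AddSubgroup.zero_mem _
  · obtain ⟨E, hE⟩ := Int.eq_ofNat_of_zero_le hpos
    obtain ⟨b, hb⟩ := IsIntegrallyClosed.exists_algebraMap_eq_of_isIntegral_pow (R := A g) (K := Q) (x := y) hp.pos
      (by rw [hyp]; exact isIntegral_algebraMap)
    have hbp : b ^ p = mk g P1 := by
      apply IsFractionRing.injective (A g) Q
      rw [map_pow, hb, hyp]
      rfl
    have hHom : Homog g hh (p * E) (b ^ p) := by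
      rw [hbp]
      refine homog_mk g hh (homZ_iff.1 ?_)
      rw [hE] at hP1h
      exact_mod_cast hP1h
    obtain ⟨P2, hP2, hP2b⟩ := (homog_iff g hh).1 (homog_root p hh E b hHom)
    refine ⟨n, P2, ?_, ?_⟩
    · rw [Finset.card_singleton, Nat.cast_one, mul_one, hE]
      exact homZ_iff.2 hP2
    · rw [hxp, ← hy, ← hb, ← hP2b]
      rfl

end Root

section Frame

variable [Fintype (Σ j : Fin d, {m : Fin (N + 1) →₀ ℕ // m.degree = a j})]
  [DecidableEq (Σ j : Fin d, {m : Fin (N + 1) →₀ ℕ // m.degree = a j})]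
  (F : Frame K (Σ j : Fin d, {m : Fin (N + 1) →₀ ℕ // m.degree = a j}))
  (hh : ∀ j, (g j).IsHomogeneous (a j)) (hF : ∀ jm, F.z jm = coeff jm.2.1 (g jm.1))
  (Q : Type u) [Field Q] [Algebra (A g) Q] [IsFractionRing (A g) Q]

theorem exists_T (p : ℕ) [Fact p.Prime] [CharP K p]
    (hh : ∀ j, (g j).IsHomogeneous (a j)) (hF : ∀ jm, F.z jm = coeff jm.2.1 (g jm.1))
    (hJ : JacCond g) (hx : ∀ i, ph g Q (X i) ≠ 0) :
    ∃ T : (Σ j : Fin d, {m : Fin (N + 1) →₀ ℕ // m.degree = a j}) → Derivation ℤ Q Q,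
      (∀ e e', T e (zz (ph g Q) F (Sum.inl e')) = if e = e' then 1 else 0) ∧
      (∀ e e' x, T e (T e' x) = T e' (T e x)) ∧ (∀ e x, (T e)^[p] x = 0) := by
  classical
  set φ := ph g Q with hφ
  have hker : ∀ j, φ (g j) = 0 := fun j => (ph_eq_zero Q _).2 (Ideal.subset_span ⟨j, rfl⟩)
  have hJ' := hJ Q φ hker ⟨0, hx 0⟩
  obtain ⟨σ, hσ⟩ := Groth.Agent.Lefpen.H718.Minor.exists_minor
    (Matrix.of fun (l : Fin d) (i : Fin (N + 1)) => φ (pderiv i (g l))) hJ'
  set B : Matrix (Fin d) (Fin d) Q :=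
    (Matrix.of fun (l : Fin d) (i : Fin (N + 1)) => φ (pderiv i (g l))).submatrix id σ with hB
  have hBa : ∀ l j, B l j = φ (pderiv (σ j) (g l)) := fun _ _ => rfl
  have hσinj : Function.Injective σ := by
    intro i j hij
    by_contra hne
    exact hσ (Matrix.det_zero_of_column_eq hne fun l => by rw [hBa, hBa, hij])
  have hBu : IsUnit B.det := isUnit_iff_ne_zero.2 hσ
  let Ci := (Σ j : Fin d, {m : Fin (N + 1) →₀ ℕ // m.degree = a j})
  have key : ∀ t : Ci ⊕ {i // i ∉ Set.range σ} → Q, ∃ D : Derivation ℤ Q Q,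
      (∀ e, D (zz φ F (Sum.inl e)) = t (Sum.inl e)) ∧ ∀ i, D (zz φ F (Sum.inr i.1)) = t (Sum.inr i) := by
    intro t
    let v0 : Ci ⊕ Fin (N + 1) → Q
      | Sum.inl e => t (Sum.inl e)
      | Sum.inr i => if h : i ∈ Set.range σ then 0 else t (Sum.inr ⟨i, h⟩)
    let w : Fin d → Q := fun l => - ∑ x, gg φ g l x * v0 x
    let u : Fin d → Q := B⁻¹.mulVec w
    have hu : B.mulVec u = w := by
      rw [Matrix.mulVec_mulVec, Matrix.mul_nonsing_inv _ hBu, Matrix.one_mulVec]
    let v1 : Ci ⊕ Fin (N + 1) → Q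
      | Sum.inl _ => 0
      | Sum.inr i => ∑ j, if i = σ j then u j else 0
    have hv1 : ∀ l, ∑ x, gg φ g l x * v1 x = w l := by
      intro l
      rw [Fintype.sum_sum_type]
      have h1 : ∑ e : Ci, gg φ g l (Sum.inl e) * v1 (Sum.inl e) = 0 :=
        Finset.sum_eq_zero fun e _ => mul_zero _
      rw [h1, zero_add]
      have h2 : ∀ i, gg (a := a) φ g l (Sum.inr i) * v1 (Sum.inr i) =
          ∑ j, if i = σ j then φ (pderiv (σ j) (g l)) * u j else 0 := by
        intro i
        change φ (pderiv i (g l)) * (∑ j, if i = σ j then u j else 0) = _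
        rw [Finset.mul_sum]
        refine Finset.sum_congr rfl fun j _ => ?_
        split_ifs with h
        · rw [h]
        · rw [mul_zero]
      simp only [h2]
      rw [Finset.sum_comm]
      simp only [Finset.sum_ite_eq', Finset.mem_univ, if_true]
      rw [← hu]
      rfl
    obtain ⟨D, hD⟩ := lift F hh hF Q (fun x => v0 x + v1 x) (fun l => by
      simp only [mul_add, Finset.sum_add_distrib]
      rw [hv1]
      exact add_neg_cancel _)
    refine ⟨D, fun e => ?_, fun i => ?_⟩
    · rw [hD]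
      exact add_zero _
    · rw [hD]
      have h1 : v0 (Sum.inr i.1) = t (Sum.inr i) := dif_neg i.2
      have h2 : v1 (Sum.inr i.1) = 0 := by
        refine Finset.sum_eq_zero fun j _ => if_neg ?_
        intro h
        exact i.2 ⟨j, h.symm⟩
      rw [h1, h2, add_zero]
  choose D hDl hDr using fun e : Ci ⊕ {i // i ∉ Set.range σ} => key (fun e' => if e = e' then 1 else 0)
  let F' : Frame Q (Ci ⊕ {i // i ∉ Set.range σ}) :=
    { z := Sum.elim (fun e => zz φ F (Sum.inl e)) (fun i => zz φ F (Sum.inr i.1))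
      D := D
      dual := by
        rintro i (e | j)
        · exact hDl i e
        · exact hDr i j
      sep := by
        intro E hE
        have hEl : ∀ e : Ci, E (zz φ F (Sum.inl e)) = 0 := fun e => hE (Sum.inl e)
        have hEr : ∀ i, i ∉ Set.range σ → E (zz φ F (Sum.inr i)) = 0 := fun i hi => hE (Sum.inr ⟨i, hi⟩)
        have hEσ : (fun j => E (zz φ F (Sum.inr (σ j)))) = 0 := by
          apply Matrix.eq_zero_of_mulVec_eq_zero hσ
          funext l
          have h1 := tangent φ F hh hF hker E l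
          rw [Fintype.sum_sum_type, Finset.sum_eq_zero (fun e _ => by rw [hEl, mul_zero]), zero_add] at h1
          have h2 : ∑ j, gg (a := a) φ g l (Sum.inr (σ j)) * E (zz φ F (Sum.inr (σ j))) =
              ∑ i, gg (a := a) φ g l (Sum.inr i) * E (zz φ F (Sum.inr i)) := by
            refine Finset.sum_of_injOn σ (fun x _ y _ h => hσinj h) (fun x _ => by simp) ?_ (fun j _ => rfl)
            intro i _ hi
            rw [hEr i (by
              rintro ⟨j, rfl⟩
              exact hi ⟨j, by simp, rfl⟩), mul_zero]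
          rw [h1] at h2
          exact h2
        refine ext_der (g := g) F Q E fun x => ?_
        rcases x with e | i
        · exact hEl e
        · by_cases hi : i ∈ Set.range σ
          · obtain ⟨j, rfl⟩ := hi
            exact congrFun hEσ j
          · exact hEr i hi }
  have hQ : CharP Q p := charP_of_injective_ringHom (φ.comp C).injective p
  refine ⟨fun e => D (Sum.inl e), fun e e' => ?_, fun e e' x => ?_, fun e x => ?_⟩
  · rw [hDl]
    simp only [Sum.inl.injEq]
  · exact Groth.Agent.Lefpen.H411.Cartier.comm F' _ _ x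
  · exact Groth.Agent.Lefpen.H411.Cartier.iter_p F' p _ x

end Frame

end Groth.Agent.Lefpen.H625.ConeRoot
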