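import Groth.Agent.Lefpen.H725.Arith
import Groth.Agent.Lefpen.H718.Grade
import Groth.Agent.Lefpen.H625.ConeCech
import Groth.Agent.Lefpen.H625.ConeRoot

/-!
# The abstract setting of S4044 for the cone of a generic complete intersection surface

`exists_setup`: the structures `Core.Setup` and `Arith.AData` on the function field of the cone.
-/

set_option autoImplicit false
set_option linter.unusedSectionVars false
universe u
open MvPolynomial

namespace Groth.Agent.Lefpen.H625.ConeSetup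

open Groth.Agent.Lefpen.H725.Core Groth.Agent.Lefpen.H725.Frame Groth.Agent.Lefpen.H725.Arith
open Groth.Agent.Lefpen.H718.Reg Groth.Agent.Lefpen.H718.ConeCM Groth.Agent.Lefpen.H718.Grade
open Groth.Agent.Lefpen.H728.LaurReg Groth.Agent.Lefpen.H625.ConeR
open Groth.Agent.Lefpen.H625.ConeDer Groth.Agent.Lefpen.H625.ConeTan

section

variable {K : Type u} [Field K] {N d : ℕ} (g : Fin d → MvPolynomial (Fin (N + 1)) K) {a : Fin d → ℕ}
  (ha : ∀ j, 1 ≤ a j) (hh : ∀ j, (g j).IsHomogeneous (a j)) (hJ : JacCond g) (hN : N = 2 + d)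

include ha hh in
theorem constCoeff (i : Fin d) : constantCoeff (g i) = 0 := by
  by_contra hne
  have h1 : ((0 : Fin (N + 1) →₀ ℕ).degree : ℤ) = a i := homZ_iff.2 (hh i) 0 hne
  rw [map_zero] at h1
  have := ha i
  omega

variable (hex : 2 < ∑ j, (a j - 1))
  [Fintype (Σ j : Fin d, {m : Fin (N + 1) →₀ ℕ // m.degree = a j})]
  [DecidableEq (Σ j : Fin d, {m : Fin (N + 1) →₀ ℕ // m.degree = a j})]
  (F : Frame K (Σ j : Fin d, {m : Fin (N + 1) →₀ ℕ // m.degree = a j}))
  (hF : ∀ jm, F.z jm = coeff jm.2.1 (g jm.1))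
  (Q : Type u) [Field Q] [Algebra (A g) Q] [IsFractionRing (A g) Q]

include ha hh hJ hN hF in
theorem x_ne (i : Fin (N + 1)) : ph g Q (X i) ≠ 0 :=
  Groth.Agent.Lefpen.H625.ConeMem.x_ne F Q hh hF (constCoeff g ha hh) hJ hN i

include ha hex hN in
theorem sum_bound : (0 : ℤ) ≤ ∑ j, (a j : ℤ) - Fintype.card (Fin (N + 1)) := by
  have h1 : ∑ j, ((a j - 1 : ℕ) : ℤ) = ∑ j, (a j : ℤ) - d := by
    have : ∀ j, ((a j - 1 : ℕ) : ℤ) = (a j : ℤ) - 1 := fun j => by
      have := ha j; omega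
    simp only [this, Finset.sum_sub_distrib]
    simp
  have h2 : (2 : ℤ) < ∑ j, ((a j - 1 : ℕ) : ℤ) := by exact_mod_cast hex
  rw [Fintype.card_fin]
  push_cast
  omega

/-- The geometric part. -/
noncomputable def setup : Setup Q (Fin (N + 1)) (Σ j : Fin d, {m : Fin (N + 1) →₀ ℕ // m.degree = a j}) (Fin d) where
  R := RS (ph g Q)
  mono := RS_mono
  mul_mem := RS_mul
  one_mem := RS_one
  al l := a l
  al_nonneg l := Int.natCast_nonneg _
  z := zz (ph g Q) F
  dg := Sum.elim (fun _ => 0) (fun _ => 1)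
  dg_inl _ := rfl
  g := gg (ph g Q) g
  g_mem := by
    rintro l (e | i) I
    · change (if l = e.1 then ph g Q (monomial e.2.1 1) else 0) ∈ RS (ph g Q) I ((a l : ℤ) - 0)
      split_ifs with h
      · refine map_mem (homZ_of (isHomogeneous_monomial _ e.2.2) ?_)
        rw [sub_zero, h]
      · exact AddSubgroup.zero_mem _
    · exact map_mem (homZ_pderiv i (homZ_iff.2 (hh l)))
  cell e := e.1
  g_cell l e h := if_neg h
  pr l α := ⟨l, Finsupp.single α (a l), by rw [Finsupp.degree_single]⟩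
  cell_pr _ _ := rfl
  w l α := (ph g Q (X α) ^ (a l))⁻¹
  w_mem l α := by
    refine ⟨a l, 1, ?_, ?_⟩
    · rw [Finset.card_singleton]
      have := homZ_one (K := K) (ι := Fin (N + 1))
      rwa [show (0 : ℤ) = -(a l : ℤ) + (a l : ℤ) * ((1 : ℕ) : ℤ) by push_cast; ring] at this
    · have hxp : xp K ({α} : Finset (Fin (N + 1))) = X α := by simp [xp]
      rw [hxp, map_one, mul_inv_cancel₀]
      exact pow_ne_zero _ (x_ne g ha hh hJ hN F hF Q α)
  g_w l α := by
    have h2 : gg (ph g Q) g l (Sum.inl (⟨l, Finsupp.single α (a l), by rw [Finsupp.degree_single]⟩ :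
        Σ j : Fin d, {m : Fin (N + 1) →₀ ℕ // m.degree = a j})) =
        ph g Q (monomial (Finsupp.single α (a l)) 1) := if_pos rfl
    rw [h2, ← X_pow_eq_monomial, map_pow, mul_inv_cancel₀]
    exact pow_ne_zero _ (x_ne g ha hh hJ hN F hF Q α)
  tangent := tangent (ph g Q) F hh hF (fun j => (ph_eq_zero Q _).2 (Ideal.subset_span ⟨j, rfl⟩))
  lift := lift F hh hF Q
  ext := Groth.Agent.Lefpen.H625.ConeMem.ext_der F Q
  der_mem D I m h m' f hf := by
    refine Groth.Agent.Lefpen.H625.ConeMem.der_mem (ph g Q) D I m (fun c => ?_) (fun i => h (Sum.inr i)) m' f hf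
    rw [der_const (ph g Q) F]
    refine AddSubgroup.sum_mem _ fun e _ => ?_
    have h1 : D (ph g Q (C (F.z e))) ∈ RS (ph g Q) I (m + 0) := h (Sum.inl e)
    exact RS_mul' h1 (map_mem (homZ_C _)) (by ring)
  Z1 := Groth.Agent.Lefpen.H625.ConeCech.exists_Z1 (x_ne g ha hh hJ hN F hF Q) g a ha
    (le_height g hJ (by omega)) hh (ph_eq_zero Q) (by rw [Fintype.card_fin]; omega)
  Soc l m hm s hs hcoc hsoc := Groth.Agent.Lefpen.H625.ConeCech.exists_Soc (x_ne g ha hh hJ hN F hF Q) g a ha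
    (le_height g hJ (by omega)) hh (ph_eq_zero Q) (by rw [Fintype.card_fin]; omega) l m
    (hm.trans (sum_bound ha hN hex)) s hs hcoc (fun u hu => by
      obtain ⟨v, hv, hvs⟩ := hsoc ⟨l, u, hu⟩ rfl
      refine ⟨v, hv, fun i j k => ?_⟩
      rw [← hvs i j k]
      congr 1
      exact (if_pos rfl).symm)

end

theorem exists_setup {K : Type u} [Field K] (p : ℕ) [Fact p.Prime] [CharP K p] {N d : ℕ}
    (g : Fin d → MvPolynomial (Fin (N + 1)) K) {a : Fin d → ℕ} (ha : ∀ j, 1 ≤ a j)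
    (hh : ∀ j, (g j).IsHomogeneous (a j)) (hJ : JacCond g) (hN : N = 2 + d) (hex : 2 < ∑ j, (a j - 1))
    [Fintype (Σ j : Fin d, {m : Fin (N + 1) →₀ ℕ // m.degree = a j})]
    [DecidableEq (Σ j : Fin d, {m : Fin (N + 1) →₀ ℕ // m.degree = a j})]
    (F : Frame K (Σ j : Fin d, {m : Fin (N + 1) →₀ ℕ // m.degree = a j}))
    (hF : ∀ jm, F.z jm = coeff jm.2.1 (g jm.1))
    (Q : Type u) [Field Q] [Algebra (A g) Q] [IsFractionRing (A g) Q] :
    ∃ (S : Setup Q (Fin (N + 1)) (Σ j : Fin d, {m : Fin (N + 1) →₀ ℕ // m.degree = a j}) (Fin d)) (T : AData S K p),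
      (∀ c, T.ι c = algebraMap (A g) Q (mk g (C c))) ∧
      (∀ i, S.z (Sum.inr i) = algebraMap (A g) Q (mk g (X i))) ∧
      (∀ (m : ℤ) (x : Q), x ∈ S.R ∅ m ↔ (x = 0 ∨ ∃ D : ℕ, (D : ℤ) = m ∧ ∃ P : MvPolynomial (Fin (N + 1)) K,
        P.IsHomogeneous D ∧ x = algebraMap (A g) Q (mk g P))) := by
  have hg := constCoeff g ha hh
  have hdom : IsDomain (A g) := isDomain g hh hg hJ hN (by norm_num)
  have hic : IsIntegrallyClosed (A g) := isIntegrallyClosed g hh hg hJ hN (by norm_num)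
  have hx := x_ne g ha hh hJ hN F hF Q
  have hht := le_height g hJ (by omega)
  have hH0 := Groth.Agent.Lefpen.H625.ConeCech.exists_H0 hx g a ha hht hh (ph_eq_zero Q)
    (by rw [Fintype.card_fin]; omega)
  obtain ⟨T, hT1, hT2, hT3⟩ := Groth.Agent.Lefpen.H625.ConeRoot.exists_T F Q p hh hF hJ hx
  refine ⟨setup g ha hh hJ hN hex F hF Q,
    { ι := (ph g Q).comp C
      F := F
      F_z := fun _ => rfl
      ι_mem := fun c I => map_mem (homZ_C c)
      der_ι := fun D c => der_const (ph g Q) F D c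
      T := T
      T_z := hT1
      T_comm := hT2
      T_p := hT3
      dg_inr := fun _ => rfl
      x_ne := hx
      z_mem := by
        rintro (e | i) I
        · exact map_mem (homZ_C _)
        · exact map_mem (homZ_X i)
      H0neg := by
        intro m x hm h
        obtain ⟨P, hP, rfl⟩ := mem_RS_empty.1 (hH0 m x h)
        rw [hP.eq_zero hm, map_zero]
      H0zero := by
        intro x h
        obtain ⟨P, hP, rfl⟩ := mem_RS_empty.1 (hH0 0 x h)
        obtain ⟨c, rfl⟩ := homZ_zero_iff hP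
        exact ⟨c, rfl⟩
      root := Groth.Agent.Lefpen.H625.ConeRoot.root p hh Q hx
      mem_R := by
        intro I m x
        have h1 : ∏ i ∈ I, (setup g ha hh hJ hN hex F hF Q).z (Sum.inr i) = ph g Q (xp K I) := by
          rw [xp, map_prod]; rfl
        rw [h1]
        exact mem_RS_iff
      euler := by
        intro D hD hDX m x hx
        obtain ⟨P, hP, rfl⟩ := mem_RS_empty.1 hx
        exact Groth.Agent.Lefpen.H625.ConeMem.euler (ph g Q) D
          (Groth.Agent.Lefpen.H625.ConeMem.der_C_of F Q D hD) hDX hP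
      euler_tangent := by
        intro l
        have h1 := (hh l).sum_X_mul_pderiv
        have h2 := congrArg (ph g Q) h1
        rw [map_sum, nsmul_eq_mul, map_mul,
          (ph_eq_zero Q (g l)).2 (Ideal.subset_span ⟨l, rfl⟩), mul_zero] at h2
        rw [← h2]
        refine Finset.sum_congr rfl fun k _ => ?_
        rw [map_mul]
        exact mul_comm _ _ }, fun c => rfl, fun i => rfl, fun m x => ?_⟩
  change x ∈ RS (ph g Q) ∅ m ↔ _
  rw [mem_RS_empty]
  constructor
  · rintro ⟨P, hP, rfl⟩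
    rcases lt_or_ge m 0 with hm | hm
    · left
      rw [hP.eq_zero hm, map_zero]
    · right
      obtain ⟨D, rfl⟩ := Int.eq_ofNat_of_zero_le hm
      exact ⟨D, rfl, P, homZ_iff.1 hP, rfl⟩
  · rintro (rfl | ⟨D, rfl, P, hP, rfl⟩)
    · exact ⟨0, homZ_zero _, (map_zero _).symm⟩
    · exact ⟨P, homZ_iff.2 hP, rfl⟩

end Groth.Agent.Lefpen.H625.ConeSetup
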