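import Groth.Agent.Lefpen.H625.ConeDer
import Groth.Agent.Lefpen.H718.Grade
import Mathlib.RingTheory.MvPolynomial.EulerIdentity

/-!
# Derivations of the function field of the cone of a complete intersection with generic coefficients
-/

set_option autoImplicit false
set_option linter.unusedSectionVars false
universe u

open MvPolynomial

namespace Groth.Agent.Lefpen.H625.ConeTan

open Groth.Agent.Lefpen.H728.LaurReg Groth.Agent.Lefpen.H625.ConeR Groth.Agent.Lefpen.H725.Frame
open Groth.Agent.Lefpen.H625.ConeDer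
open Groth.Agent.Lefpen.H718.Reg Groth.Agent.Lefpen.H718.ConeCM Groth.Agent.Lefpen.H718.Grade

theorem homZ_pderiv {K : Type u} [Field K] {ι : Type} [DecidableEq ι] (i : ι) {P : MvPolynomial ι K} {z : ℤ}
    (h : HomZ P z) : HomZ (pderiv i P) (z - 1) := by
  rw [← support_sum_monomial_coeff P, map_sum]
  refine HomZ.sum' _ _ fun s hs => ?_
  rw [pderiv_monomial]
  by_cases hi : s i = 0
  · rw [hi, Nat.cast_zero, mul_zero, map_zero]
    exact homZ_zero _
  · refine homZ_of (isHomogeneous_monomial (n := (s - Finsupp.single i 1).degree) _ rfl) ?_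
    have h1 : (s.degree : ℤ) = z := h s (mem_support_iff.1 hs)
    have h2 : s = (s - Finsupp.single i 1) + Finsupp.single i 1 := by
      rw [tsub_add_cancel_of_le]
      rw [Finsupp.single_le_iff]; omega
    have h3 := congrArg Finsupp.degree h2
    rw [map_add, Finsupp.degree_single] at h3
    omega

section

variable {K : Type u} [Field K] {N d : ℕ} {g : Fin d → MvPolynomial (Fin (N + 1)) K} {a : Fin d → ℕ}
  [Fintype (Σ j : Fin d, {m : Fin (N + 1) →₀ ℕ // m.degree = a j})]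
  [DecidableEq (Σ j : Fin d, {m : Fin (N + 1) →₀ ℕ // m.degree = a j})]
  {Q : Type u} [Field Q] (φ : MvPolynomial (Fin (N + 1)) K →+* Q)
  (F : Frame K (Σ j : Fin d, {m : Fin (N + 1) →₀ ℕ // m.degree = a j}))

/-- The coordinates. -/
noncomputable def zz : (Σ j : Fin d, {m : Fin (N + 1) →₀ ℕ // m.degree = a j}) ⊕ Fin (N + 1) → Q
  | Sum.inl e => φ (C (F.z e))
  | Sum.inr i => φ (X i)

omit [Fintype (Σ j : Fin d, {m : Fin (N + 1) →₀ ℕ // m.degree = a j})]
  [DecidableEq (Σ j : Fin d, {m : Fin (N + 1) →₀ ℕ // m.degree = a j})] in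
/-- The partial derivatives of the equations. -/
noncomputable def gg (g : Fin d → MvPolynomial (Fin (N + 1)) K) (l : Fin d) :
    (Σ j : Fin d, {m : Fin (N + 1) →₀ ℕ // m.degree = a j}) ⊕ Fin (N + 1) → Q
  | Sum.inl e => if l = e.1 then φ (monomial e.2.1 1) else 0
  | Sum.inr i => φ (pderiv i (g l))

/-- The finite set of monomials. -/
@[reducible] noncomputable def fin_mon (a : Fin d → ℕ) [Fintype (Σ j : Fin d, {m : Fin (N + 1) →₀ ℕ // m.degree = a j})]
    (l : Fin d) : Fintype {m : Fin (N + 1) →₀ ℕ // m.degree = a l} :=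
  Fintype.ofInjective (fun m => (⟨l, m⟩ : Σ j : Fin d, {m : Fin (N + 1) →₀ ℕ // m.degree = a j}))
    (fun x y h => by simpa using h)

theorem sum_cell (l : Fin d) [Fintype {m : Fin (N + 1) →₀ ℕ // m.degree = a l}]
    (f : (Σ j : Fin d, {m : Fin (N + 1) →₀ ℕ // m.degree = a j}) → Q) (hf : ∀ e, l ≠ e.1 → f e = 0) :
    ∑ e, f e = ∑ m, f ⟨l, m⟩ := by
  symm
  refine Finset.sum_of_injOn (fun m => (⟨l, m⟩ : Σ j : Fin d, {m : Fin (N + 1) →₀ ℕ // m.degree = a j})) ?_ ?_ ?_ ?_
  · intro x _ y _ h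
    simpa using h
  · intro x _; simp
  · rintro ⟨j, m⟩ _ h
    apply hf
    intro hl
    change l = j at hl
    subst hl
    exact h ⟨m, by simp, rfl⟩
  · intro m _; rfl

variable (hh : ∀ j, (g j).IsHomogeneous (a j)) (hF : ∀ jm, F.z jm = coeff jm.2.1 (g jm.1))

include hh hF

theorem leib_g (E : MvPolynomial (Fin (N + 1)) K →+ Q) (hE : ∀ P P', E (P * P') = φ P * E P' + φ P' * E P)
    (l : Fin d) : E (g l) = ∑ e : (Σ j : Fin d, {m : Fin (N + 1) →₀ ℕ // m.degree = a j}),
      gg φ g l (Sum.inl e) * E (C (F.z e)) + ∑ i, gg (a := a) φ g l (Sum.inr i) * E (X i) := by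
  let _ : Fintype {m : Fin (N + 1) →₀ ℕ // m.degree = a l} := fin_mon a l
  rw [leibniz_formula φ E hE, cd_homog φ _ _ _ (hh l), sum_cell l]
  · congr 1
    refine Finset.sum_congr rfl fun m _ => ?_
    have h1 : gg φ g l (Sum.inl (⟨l, m⟩ : Σ j : Fin d, {m : Fin (N + 1) →₀ ℕ // m.degree = a j})) =
        φ (monomial m.1 1) := if_pos rfl
    rw [h1, hF, mul_comm]
    rfl
  · intro e he
    have h1 : gg φ g l (Sum.inl e) = 0 := if_neg he
    rw [h1, zero_mul]

theorem tangent (hker : ∀ j, φ (g j) = 0) (D : Derivation ℤ Q Q) (l : Fin d) :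
    ∑ x, gg φ g l x * D (zz φ F x) = 0 := by
  rw [Fintype.sum_sum_type]
  have h := leib_g φ F hh hF ((D : Q →+ Q).comp φ.toAddMonoidHom) (fun P P' => by
    change D (φ (P * P')) = φ P * D (φ P') + φ P' * D (φ P)
    rw [map_mul, Derivation.leibniz, smul_eq_mul, smul_eq_mul]) l
  have h0 : ((D : Q →+ Q).comp φ.toAddMonoidHom) (g l) = 0 := by
    change D (φ (g l)) = 0
    rw [hker, map_zero]
  rw [h0] at h
  exact h.symm

end

section

variable {K : Type u} [Field K] {N d : ℕ} {g : Fin d → MvPolynomial (Fin (N + 1)) K} {a : Fin d → ℕ}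
  [Fintype (Σ j : Fin d, {m : Fin (N + 1) →₀ ℕ // m.degree = a j})]
  [DecidableEq (Σ j : Fin d, {m : Fin (N + 1) →₀ ℕ // m.degree = a j})]
  (F : Frame K (Σ j : Fin d, {m : Fin (N + 1) →₀ ℕ // m.degree = a j}))
  (hh : ∀ j, (g j).IsHomogeneous (a j)) (hF : ∀ jm, F.z jm = coeff jm.2.1 (g jm.1))
  (Q : Type u) [Field Q] [Algebra (A g) Q] [IsFractionRing (A g) Q]

/-- The map from polynomials to the function field. -/
noncomputable abbrev ph (g : Fin d → MvPolynomial (Fin (N + 1)) K) (Q : Type u) [Field Q] [Algebra (A g) Q] :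
    MvPolynomial (Fin (N + 1)) K →+* Q := (algebraMap (A g) Q).comp (mk g)

theorem ph_eq_zero (P : MvPolynomial (Fin (N + 1)) K) : ph g Q P = 0 ↔ P ∈ Ideal.span (Set.range g) := by
  rw [RingHom.comp_apply, IsFractionRing.to_map_eq_zero_iff]
  exact Ideal.Quotient.eq_zero_iff_mem

theorem exists_frac (q : Q) : ∃ P P' : MvPolynomial (Fin (N + 1)) K, ph g Q P' ≠ 0 ∧ q * ph g Q P' = ph g Q P := by
  obtain ⟨⟨x, s⟩, h⟩ := IsLocalization.surj (nonZeroDivisors (A g)) q
  obtain ⟨P, rfl⟩ := Ideal.Quotient.mk_surjective x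
  obtain ⟨P', hP'⟩ := Ideal.Quotient.mk_surjective s.1
  refine ⟨P, P', ?_, ?_⟩
  · have h1 := IsLocalization.map_units Q s
    rw [← hP'] at h1
    exact h1.ne_zero
  · rw [← hP'] at h
    exact h

include hh hF

open TrivSqZeroExt in
/-- Existence of derivations. -/
theorem lift (v : (Σ j : Fin d, {m : Fin (N + 1) →₀ ℕ // m.degree = a j}) ⊕ Fin (N + 1) → Q)
    (hv : ∀ l, ∑ x, gg (ph g Q) g l x * v x = 0) :
    ∃ D : Derivation ℤ Q Q, ∀ x, D (zz (ph g Q) F x) = v x := by
  set φ := ph g Q with hφ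
  let δ : K →+ Q := ∑ e, (AddMonoidHom.mulLeft (v (Sum.inl e))).comp ((φ.comp C).toAddMonoidHom.comp (F.D e : K →+ K))
  have hδ : ∀ c, δ c = ∑ e, v (Sum.inl e) * φ (C (F.D e c)) := by
    intro c
    change (∑ e, (AddMonoidHom.mulLeft (v (Sum.inl e))).comp
      ((φ.comp C).toAddMonoidHom.comp (F.D e : K →+ K))) c = _
    rw [AddMonoidHom.finsetSum_apply]
    rfl
  have hδL : ∀ x y, δ (x * y) = (φ.comp C) x * δ y + (φ.comp C) y * δ x := by
    intro x y
    rw [hδ, hδ, hδ, Finset.mul_sum, Finset.mul_sum, ← Finset.sum_add_distrib]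
    refine Finset.sum_congr rfl fun e _ => ?_
    change v (Sum.inl e) * φ (C (F.D e (x * y))) = φ (C x) * (v (Sum.inl e) * φ (C (F.D e y))) +
      φ (C y) * (v (Sum.inl e) * φ (C (F.D e x)))
    rw [Derivation.leibniz, smul_eq_mul, smul_eq_mul, map_add, map_add, map_mul, map_mul, map_mul, map_mul]
    ring
  let ψ₀ : MvPolynomial (Fin (N + 1)) K →+* TrivSqZeroExt Q Q :=
    eval₂Hom (mkHom (φ.comp C) δ hδL) (fun i => inl (φ (X i)) + inr (v (Sum.inr i)))
  have hfst : ∀ P, (ψ₀ P).fst = φ P := by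
    have h : (TrivSqZeroExt.fstHom Q Q Q).toRingHom.comp ψ₀ = φ := by
      apply MvPolynomial.ringHom_ext
      · intro c
        simp [ψ₀, mkHom]
      · intro i
        simp [ψ₀]
    intro P
    exact congr($h P)
  let E : MvPolynomial (Fin (N + 1)) K →+ Q :=
    { toFun := fun P => (ψ₀ P).snd
      map_zero' := by simp
      map_add' := fun x y => by simp }
  have hE : ∀ P P', E (P * P') = φ P * E P' + φ P' * E P := by
    intro P P'
    change (ψ₀ (P * P')).snd = φ P * (ψ₀ P').snd + φ P' * (ψ₀ P).snd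
    rw [map_mul, TrivSqZeroExt.snd_mul, hfst, hfst]
    simp [mul_comm]
  have hEC : ∀ c, E (C c) = δ c := by
    intro c
    change (ψ₀ (C c)).snd = δ c
    simp [ψ₀, snd_mkHom]
  have hEz : ∀ e, E (C (F.z e)) = v (Sum.inl e) := by
    intro e
    rw [hEC, hδ, Finset.sum_eq_single e]
    · rw [F.dual, if_pos rfl, map_one, map_one, mul_one]
    · intro b _ hb
      rw [F.dual, if_neg hb, map_zero, map_zero, mul_zero]
    · intro h; exact absurd (Finset.mem_univ _) h
  have hEX : ∀ i, E (X i) = v (Sum.inr i) := by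
    intro i
    change (ψ₀ (X i)).snd = _
    simp [ψ₀]
  have hg0 : ∀ l, ψ₀ (g l) = 0 := by
    intro l
    refine TrivSqZeroExt.ext ?_ ?_
    · rw [hfst, TrivSqZeroExt.fst_zero]
      exact (ph_eq_zero Q _).2 (Ideal.subset_span ⟨l, rfl⟩)
    · change E (g l) = 0
      rw [leib_g φ F hh hF E hE l]
      simp only [hEz, hEX]
      rw [← Fintype.sum_sum_type (fun x => gg φ g l x * v x)]
      exact hv l
  have hker : ∀ P ∈ Ideal.span (Set.range g), ψ₀ P = 0 := by
    have : Ideal.span (Set.range g) ≤ RingHom.ker ψ₀ := by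
      rw [Ideal.span_le]
      rintro _ ⟨l, rfl⟩
      exact hg0 l
    exact this
  let ψ₁ : A g →+* TrivSqZeroExt Q Q := Ideal.Quotient.lift _ ψ₀ hker
  have hψ₁ : ∀ P, ψ₁ (mk g P) = ψ₀ P := fun P => rfl
  have hfst₁ : ∀ x, (ψ₁ x).fst = algebraMap (A g) Q x := by
    intro x
    obtain ⟨P, rfl⟩ := Ideal.Quotient.mk_surjective x
    exact hfst P
  have hunit : ∀ s : nonZeroDivisors (A g), IsUnit (ψ₁ s) := by
    intro s
    rw [TrivSqZeroExt.isUnit_iff_isUnit_fst, hfst₁]
    exact IsLocalization.map_units Q s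
  let ψ : Q →+* TrivSqZeroExt Q Q := IsLocalization.lift (M := nonZeroDivisors (A g)) hunit
  have hψ : ∀ x, ψ (algebraMap (A g) Q x) = ψ₁ x := fun x => IsLocalization.lift_eq _ _
  have hid : ∀ x, (ψ x).fst = x := by
    have h : (TrivSqZeroExt.fstHom Q Q Q).toRingHom.comp ψ = RingHom.id Q := by
      apply IsLocalization.ringHom_ext (nonZeroDivisors (A g))
      refine RingHom.ext fun x => ?_
      change (ψ (algebraMap (A g) Q x)).fst = algebraMap (A g) Q x
      rw [hψ, hfst₁]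
    intro x
    exact congr($h x)
  refine ⟨derOf ψ hid, fun x => ?_⟩
  have hD : ∀ P, derOf ψ hid (φ P) = E P := by
    intro P
    rw [derOf_apply]
    change (ψ (algebraMap (A g) Q (mk g P))).snd = (ψ₀ P).snd
    rw [hψ, hψ₁]
  rcases x with e | i
  · exact (hD _).trans (hEz e)
  · exact (hD _).trans (hEX i)

end

end Groth.Agent.Lefpen.H625.ConeTan
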